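import Cfsg.Agent.PLocal.ThompsonFrattini
import Cfsg.Agent.R2.RkInt.Tiz

/-!
# Groups with one component

`OC L R` : `L` is a normal quasisimple subgroup, `R` the maximal normal 2-subgroup, of 2-rank one and commuting with
`L`, `C(LR) ≤ R`.

* `OC.split` : `S = (S ∩ L) R`;
* `OC.inter` : distinct Sylow 2-subgroups meet in a subgroup of `R`.
-/

set_option autoImplicit false
set_option linter.dupNamespace false

namespace Cfsg.Agent.R2.RkInt

open Subgroup Cfsg Cfsg.Agent.TwoGenCore Cfsg.Agent.H335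

/-- one component -/
structure OC {G : Type*} [Group G] (L R : Subgroup G) : Prop where
  rk : RkInt G
  normal : L.Normal
  perf : Group.IsPerfect L
  simple : IsSimpleGroup (L ⧸ center L)
  Rnormal : R.Normal
  R2 : IsPGroup 2 R
  RF : ¬ Four R
  comm : ∀ l ∈ L, ∀ r ∈ R, l * r = r * l
  maxR : ∀ N : Subgroup G, N.Normal → IsPGroup 2 N → N ≤ R
  cent : ∀ g : G, (∀ l ∈ L, g * l = l * g) → (∀ r ∈ R, g * r = r * g) → g ∈ R

namespace OC

variable {G : Type*} [Group G] [Finite G] {L R : Subgroup G}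

omit [Finite G] in
theorem center_le (h : OC L R) {x : L} (hx : x ∈ center L) : (x : G) ∈ R := by
  refine h.cent x (fun l hl => ?_) (fun r hr => h.comm x x.2 r hr)
  exact congrArg Subtype.val ((mem_center_iff.1 hx ⟨l, hl⟩).symm)

omit [Finite G] in
theorem center_iff (h : OC L R) {x : L} : x ∈ center L ↔ (x : G) ∈ R := by
  refine ⟨h.center_le, fun hx => ?_⟩
  rw [mem_center_iff]
  intro g
  exact Subtype.ext (h.comm g g.2 x hx)

omit [Finite G] in
theorem center_two (h : OC L R) : IsPGroup 2 (center L) := by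
  rintro ⟨x, hx⟩
  obtain ⟨k, hk⟩ := h.R2 ⟨x, h.center_le hx⟩
  have hk' : (x : G) ^ 2 ^ k = 1 := congrArg Subtype.val hk
  exact ⟨k, Subtype.ext (Subtype.ext hk')⟩

omit [Finite G] in
theorem center_not_four (h : OC L R) : ¬ Four (center L) := by
  rintro ⟨x, hx, y, hy, h1, h2, h3, h4, h5, h6⟩
  exact h.RF ⟨x, h.center_le hx, y, h.center_le hy, fun h => h1 (Subtype.ext h), fun h => h2 (Subtype.ext h),
    fun h => h3 (Subtype.ext h), congrArg Subtype.val h4, congrArg Subtype.val h5, congrArg Subtype.val h6⟩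

omit [Finite G] in
theorem R_le (h : OC L R) (S : Sylow 2 G) : R ≤ S := le_sylow_of_normal h.Rnormal h.R2 S

theorem exists_sylow (h : OC L R) (S : Sylow 2 G) : ∃ P : Sylow 2 L, (P : Subgroup L) = (S : Subgroup G).subgroupOf L := by
  have h2 : Fact (Nat.Prime 2) := ⟨Nat.prime_two⟩
  have := h.normal
  exact PLocal.ThompsonFrattini.exists_sylow_subgroupOf S L

/-- `N_L(S ∩ L) ≤ N(S)` -/
theorem norm (h : OC L R) {S : Sylow 2 G} (hF : Four ((S : Subgroup G) ⊓ L ⊔ R)) {n : G}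
    (hn : ∀ x ∈ (S : Subgroup G) ⊓ L, n * x * n⁻¹ ∈ (S : Subgroup G)) : n ∈ normalizer ((S : Subgroup G) : Set G) := by
  have hRn := h.Rnormal
  refine h.rk.norm hF (sup_le inf_le_left (h.R_le S)) ?_
  intro x hx
  rw [mem_sup_of_normal_right] at hx
  obtain ⟨a, ha, r, hr, rfl⟩ := hx
  have h1 : n * (a * r) * n⁻¹ = (n * a * n⁻¹) * (n * r * n⁻¹) := by group
  rw [h1]
  exact mul_mem (hn a ha) (h.R_le S (hRn.conj_mem r hr n))

/-- `S ∩ C(L) ≤ R` -/
theorem inf_centralizer_le (h : OC L R) {S : Sylow 2 G} (hF : Four ((S : Subgroup G) ⊓ L ⊔ R)) {c : G}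
    (hc : c ∈ (S : Subgroup G)) (hcL : ∀ l ∈ L, c * l = l * c) : c ∈ R := by
  have h2 : Fact (Nat.Prime 2) := ⟨Nat.prime_two⟩
  have hLn := h.normal
  set C := centralizer (L : Set G) with hC
  have hCn : C.Normal := inferInstance
  obtain ⟨P, hP⟩ := PLocal.ThompsonFrattini.exists_sylow_subgroupOf S C
  have hCS : ∀ n ∈ C, n ∈ normalizer ((S : Subgroup G) : Set G) := by
    intro n hn
    refine h.norm hF ?_
    intro x hx
    have h3 : n * x = x * n := (mem_centralizer_iff.1 hn x hx.2).symm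
    rw [h3]
    have h4 : x * n * n⁻¹ = x := by group
    rw [h4]
    exact hx.1
  have hPn : (P : Subgroup C).Normal := by
    refine ⟨?_⟩
    intro x hx n
    rw [hP] at hx ⊢
    exact (mem_normalizer_iff.1 (hCS n n.2) x).1 hx
  have hPc : (P : Subgroup C).Characteristic := P.characteristic_of_normal hPn
  have h3 : ((P : Subgroup C).map C.subtype).Normal := inferInstance
  have h4 := h.maxR _ h3 (P.2.map _)
  have hcC : c ∈ C := by
    rw [hC, mem_centralizer_iff]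
    intro l hl
    exact (hcL l hl).symm
  exact h4 ⟨⟨c, hcC⟩, by rw [SetLike.mem_coe, hP]; exact hc, rfl⟩

/-- **`S = (S ∩ L) R`** -/
theorem split (h : OC L R) {S : Sylow 2 G} (hF : Four ((S : Subgroup G) ⊓ L ⊔ R))
    (hI : ∀ (P : Sylow 2 L) (α : MulAut L), (∃ k : ℕ, α ^ 2 ^ k = 1) →
      (∀ x ∈ normalizer ((P : Subgroup L) : Set L), α x * x⁻¹ ∈ (P : Subgroup L)) → ∃ x, α = MulAut.conj x) :
    (S : Subgroup G) = (S : Subgroup G) ⊓ L ⊔ R := by
  have h2 : Fact (Nat.Prime 2) := ⟨Nat.prime_two⟩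
  have hLn := h.normal
  have hRn := h.Rnormal
  refine le_antisymm ?_ (sup_le inf_le_left (h.R_le S))
  obtain ⟨P, hP⟩ := h.exists_sylow S
  -- the elements `y` of `L` with `y⁻¹ s ∈ C(L)` for some `s ∈ S`
  set C := centralizer (L : Set G) with hC
  have hCn : C.Normal := inferInstance
  set A : Subgroup L := ((S : Subgroup G) ⊔ C).subgroupOf L with hA
  have hA2 : IsPGroup 2 A := by
    rintro ⟨⟨y, hyL⟩, hy⟩
    have hy' : y ∈ (S : Subgroup G) ⊔ C := hy
    rw [mem_sup_of_normal_right] at hy'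
    obtain ⟨s, hs, c, hc, hsc⟩ := hy'
    obtain ⟨k, hk⟩ := S.2 ⟨s, hs⟩
    have hk' : s ^ 2 ^ k = 1 := congrArg Subtype.val hk
    have h3 : y ^ 2 ^ k ∈ C := by
      have h4 : (QuotientGroup.mk' C) (y ^ 2 ^ k) = 1 := by
        have h5 : (QuotientGroup.mk' C) c = 1 := (QuotientGroup.eq_one_iff c).2 hc
        rw [map_pow, ← hsc, map_mul, h5, mul_one, ← map_pow, hk', map_one]
      exact (QuotientGroup.eq_one_iff _).1 h4
    have h4 : (⟨y, hyL⟩ : L) ^ 2 ^ k ∈ center L := by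
      rw [mem_center_iff]
      intro g
      apply Subtype.ext
      exact mem_centralizer_iff.1 h3 g g.2
    obtain ⟨j, hj⟩ := h.center_two ⟨_, h4⟩
    refine ⟨k + j, Subtype.ext ?_⟩
    have h5 := congrArg Subtype.val hj
    change ((⟨y, hyL⟩ : L) ^ 2 ^ k) ^ 2 ^ j = 1 at h5
    change (⟨y, hyL⟩ : L) ^ 2 ^ (k + j) = 1
    rw [pow_add, pow_mul]
    exact h5
  have hPA : (P : Subgroup L) ≤ A := by
    intro x hx
    rw [hP] at hx
    exact mem_sup_left (show (x : G) ∈ (S : Subgroup G) from hx)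
  have hAP : A = P := P.3 hA2 hPA
  intro s hs
  have hc : ∀ y : L, ((MulAut.conjNormal s y : L) : G) = s * y * s⁻¹ := fun y => MulAut.conjNormal_apply s y
  obtain ⟨k, hk⟩ := S.2 ⟨s, hs⟩
  have hk' : s ^ 2 ^ k = 1 := congrArg Subtype.val hk
  obtain ⟨y, hy⟩ := hI P (MulAut.conjNormal s) ⟨k, by rw [← map_pow, hk', map_one]⟩ (fun n hn => by
    have h3 : (n : G) ∈ normalizer ((S : Subgroup G) : Set G) := by
      refine h.norm hF fun x hx => ?_
      have h4 : (⟨x, hx.2⟩ : L) ∈ (P : Subgroup L) := by rw [hP]; exact hx.1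
      have h5 := (mem_normalizer_iff.1 hn _).1 h4
      rw [hP] at h5
      exact h5
    rw [hP]
    change ((MulAut.conjNormal s n : L) : G) * (n : G)⁻¹ ∈ (S : Subgroup G)
    rw [hc]
    have h5 : s * (n : G) * s⁻¹ * (n : G)⁻¹ = s * ((n : G) * s⁻¹ * (n : G)⁻¹) := by group
    rw [h5]
    exact mul_mem hs ((mem_normalizer_iff.1 h3 s⁻¹).1 ((S : Subgroup G).inv_mem hs)))
  have hyc : (y : G)⁻¹ * s ∈ C := by
    rw [hC, mem_centralizer_iff]
    intro l hl
    have h5 := hc ⟨l, hl⟩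
    rw [hy] at h5
    have h6 : (y : G) * l * (y : G)⁻¹ = s * l * s⁻¹ := h5
    calc l * ((y : G)⁻¹ * s) = (y : G)⁻¹ * ((y : G) * l * (y : G)⁻¹) * s := by group
      _ = (y : G)⁻¹ * (s * l * s⁻¹) * s := by rw [h6]
      _ = (y : G)⁻¹ * s * l := by group
  have hyA : y ∈ A := by
    change (y : G) ∈ (S : Subgroup G) ⊔ C
    have h5 : (y : G) = s * ((y : G)⁻¹ * s)⁻¹ := by group
    rw [h5]
    exact mul_mem (mem_sup_left hs) (mem_sup_right (inv_mem hyc))
  rw [hAP, hP] at hyA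
  have hyS : (y : G) ∈ (S : Subgroup G) := hyA
  have h5 : (y : G)⁻¹ * s ∈ R := h.inf_centralizer_le hF (mul_mem (inv_mem hyS) hs) (fun l hl =>
    (mem_centralizer_iff.1 hyc l hl).symm)
  have h6 : s = y * ((y : G)⁻¹ * s) := by group
  rw [h6]
  exact mul_mem (mem_sup_left ⟨hyS, y.2⟩) (mem_sup_right h5)

/-- distinct Sylow 2-subgroups meet in a subgroup of `R` -/
theorem inter (h : OC L R) (hT : TIZ L) {S T : Sylow 2 G} (hS : (S : Subgroup G) = (S : Subgroup G) ⊓ L ⊔ R)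
    (hT' : (T : Subgroup G) = (T : Subgroup G) ⊓ L ⊔ R) (hne : S ≠ T) : (S : Subgroup G) ⊓ T ≤ R := by
  have hRn := h.Rnormal
  rintro x ⟨hx1, hx2⟩
  obtain ⟨P, hP⟩ := h.exists_sylow S
  obtain ⟨P', hP'⟩ := h.exists_sylow T
  have hPP : P ≠ P' := by
    rintro rfl
    apply hne
    have h3 : (S : Subgroup G) ⊓ L = (T : Subgroup G) ⊓ L := by
      rw [← subgroupOf_map_subtype, ← hP, hP', subgroupOf_map_subtype]
    apply Sylow.ext
    rw [hS, h3, ← hT']
  have hx1' : x ∈ (S : Subgroup G) ⊓ L ⊔ R := by rw [← hS]; exact hx1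
  have hx2' : x ∈ (T : Subgroup G) ⊓ L ⊔ R := by rw [← hT']; exact hx2
  rw [mem_sup_of_normal_right] at hx1' hx2'
  obtain ⟨s, hs, r, hr, hsr⟩ := hx1'
  obtain ⟨t, ht, r', hr', htr⟩ := hx2'
  have h3 : s⁻¹ * t = r * r'⁻¹ := by
    have h4 : s * r = t * r' := hsr.trans htr.symm
    calc s⁻¹ * t = s⁻¹ * (t * r') * r'⁻¹ := by group
      _ = s⁻¹ * (s * r) * r'⁻¹ := by rw [h4]
      _ = _ := by group
  have h4 : s⁻¹ * t ∈ R := by rw [h3]; exact mul_mem hr (inv_mem hr')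
  have htS : t ∈ (S : Subgroup G) := by
    have : t = s * (s⁻¹ * t) := by group
    rw [this]
    exact mul_mem hs.1 (h.R_le S h4)
  have h5 : (⟨t, ht.2⟩ : L) ∈ (P : Subgroup L) ⊓ P' := by
    constructor
    · rw [SetLike.mem_coe, hP]; exact htS
    · rw [SetLike.mem_coe, hP']; exact ht.1
  have h6 : t ∈ R := h.center_le (hT P P' hPP h5)
  rw [← htr]
  exact mul_mem h6 hr'

end OC

end Cfsg.Agent.R2.RkInt
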