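import Mathlib
import Cfsg.Prelude.Def_Local

/-!
# Central quotients of perfect groups and Sylow 2-subgroups

* `inner_lift` : the property `InnP` lifts from `L / Z(L)` to `L`, `L` perfect, `Z(L)` a 2-group;
* `TIZ L` : distinct Sylow 2-subgroups of `L` meet in `Z(L)`; `ti_quot` : `L / Z(L)` has independent Sylow 2-subgroups.
-/

set_option autoImplicit false
set_option linter.dupNamespace false

namespace Cfsg.Agent.R2.RkInt

open Subgroup Cfsg

section quot

variable {L : Type*} [Group L] [Finite L]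

omit [Finite L] in
theorem le_sylow_of_normal {Z : Subgroup L} (hn : Z.Normal) (hZ : IsPGroup 2 Z) (P : Sylow 2 L) :
    Z ≤ (P : Subgroup L) := by
  have h : IsPGroup 2 (Z ⊔ (P : Subgroup L) : Subgroup L) := hZ.to_sup_of_normal_left P.2
  have h1 := P.3 h le_sup_right
  rw [← h1]
  exact le_sup_left

/-- the image of a Sylow 2-subgroup -/
noncomputable def qSyl (Z : Subgroup L) [Z.Normal] (P : Sylow 2 L) : Sylow 2 (L ⧸ Z) :=
  haveI : Fact (Nat.Prime 2) := ⟨Nat.prime_two⟩
  P.mapSurjective (QuotientGroup.mk'_surjective Z)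

theorem coe_qSyl (Z : Subgroup L) [Z.Normal] (P : Sylow 2 L) :
    ((qSyl Z P : Sylow 2 (L ⧸ Z)) : Subgroup (L ⧸ Z)) = (P : Subgroup L).map (QuotientGroup.mk' Z) := rfl

theorem qSyl_surjective (Z : Subgroup L) [Z.Normal] : Function.Surjective (qSyl Z) := by
  have : Fact (Nat.Prime 2) := ⟨Nat.prime_two⟩
  exact Sylow.mapSurjective_surjective (QuotientGroup.mk'_surjective Z) 2

theorem mem_qSyl {Z : Subgroup L} [Z.Normal] {P : Sylow 2 L} (hZP : Z ≤ P) {x : L} :
    (QuotientGroup.mk' Z x) ∈ ((qSyl Z P : Sylow 2 (L ⧸ Z)) : Subgroup (L ⧸ Z)) ↔ x ∈ (P : Subgroup L) := by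
  rw [coe_qSyl]
  constructor
  · rintro ⟨y, hy, hyx⟩
    have h1 : y⁻¹ * x ∈ Z := QuotientGroup.eq.1 hyx
    have h2 : x = y * (y⁻¹ * x) := by group
    rw [h2]
    exact mul_mem hy (hZP h1)
  · intro hx
    exact ⟨x, hx, rfl⟩

theorem mem_normalizer_qSyl {Z : Subgroup L} [Z.Normal] {P : Sylow 2 L} (hZP : Z ≤ P) {x : L} :
    (QuotientGroup.mk' Z x) ∈ normalizer (((qSyl Z P : Sylow 2 (L ⧸ Z)) : Subgroup (L ⧸ Z)) : Set (L ⧸ Z)) ↔
      x ∈ normalizer ((P : Subgroup L) : Set L) := by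
  rw [mem_normalizer_iff, mem_normalizer_iff]
  constructor
  · intro h y
    have h1 := h (QuotientGroup.mk' Z y)
    rw [← map_inv, ← map_mul, ← map_mul] at h1
    change (QuotientGroup.mk' Z y) ∈ ((qSyl Z P : Sylow 2 (L ⧸ Z)) : Subgroup (L ⧸ Z)) ↔
      (QuotientGroup.mk' Z (x * y * x⁻¹)) ∈ ((qSyl Z P : Sylow 2 (L ⧸ Z)) : Subgroup (L ⧸ Z)) at h1
    rwa [mem_qSyl hZP, mem_qSyl hZP] at h1
  · intro h y
    obtain ⟨y, rfl⟩ := QuotientGroup.mk'_surjective Z y
    rw [← map_inv, ← map_mul, ← map_mul]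
    change (QuotientGroup.mk' Z y) ∈ ((qSyl Z P : Sylow 2 (L ⧸ Z)) : Subgroup (L ⧸ Z)) ↔
      (QuotientGroup.mk' Z (x * y * x⁻¹)) ∈ ((qSyl Z P : Sylow 2 (L ⧸ Z)) : Subgroup (L ⧸ Z))
    rw [mem_qSyl hZP, mem_qSyl hZP]
    exact h y

end quot

section perfect

variable {L : Type*} [Group L]

/-- automorphisms of a perfect group which agree modulo the centre are equal -/
theorem eq_of_perfect (hperf : Group.IsPerfect L) (α β : MulAut L) (h : ∀ x, (β x)⁻¹ * α x ∈ center L) : α = β := by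
  let ζ : L →* center L :=
    { toFun := fun x => ⟨(β x)⁻¹ * α x, h x⟩
      map_one' := by
        apply Subtype.ext
        change (β 1)⁻¹ * α 1 = 1
        rw [map_one, map_one, inv_one, one_mul]
      map_mul' := by
        intro x y
        apply Subtype.ext
        change (β (x * y))⁻¹ * α (x * y) = ((β x)⁻¹ * α x) * ((β y)⁻¹ * α y)
        have h1 : (β y)⁻¹ * ((β x)⁻¹ * α x) = ((β x)⁻¹ * α x) * (β y)⁻¹ := (mem_center_iff.1 (h x) _)
        calc (β (x * y))⁻¹ * α (x * y) = (β y)⁻¹ * ((β x)⁻¹ * α x) * α y := by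
              rw [map_mul, map_mul]; group
          _ = ((β x)⁻¹ * α x) * (β y)⁻¹ * α y := by rw [h1]
          _ = _ := by group }
  have hc : commutator L ≤ ζ.ker := by
    rw [commutator_def, commutator_le]
    intro a _ b _
    rw [MonoidHom.mem_ker, map_commutatorElement, commutatorElement_def]
    apply Subtype.ext
    change ((ζ a : L) * ζ b * (ζ a : L)⁻¹ * (ζ b : L)⁻¹) = 1
    rw [mem_center_iff.1 (ζ b).2 (ζ a : L)]
    group
  rw [hperf.commutator_eq_top] at hc
  ext x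
  have h1 : ζ x = 1 := hc (mem_top x)
  have h2 : (β x)⁻¹ * α x = 1 := congrArg Subtype.val h1
  exact (inv_mul_eq_one.1 h2).symm

end perfect

section lift

variable {L : Type*} [Group L] [Finite L]

theorem inner_lift (hperf : Group.IsPerfect L) (hZ : IsPGroup 2 (center L))
    (hI : ∀ (P : Sylow 2 (L ⧸ center L)) (α : MulAut (L ⧸ center L)), (∃ k : ℕ, α ^ 2 ^ k = 1) →
      (∀ x ∈ normalizer ((P : Subgroup (L ⧸ center L)) : Set (L ⧸ center L)),
        α x * x⁻¹ ∈ (P : Subgroup (L ⧸ center L))) → ∃ x, α = MulAut.conj x)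
    (P : Sylow 2 L) (α : MulAut L) (hk : ∃ k : ℕ, α ^ 2 ^ k = 1)
    (hN : ∀ x ∈ normalizer ((P : Subgroup L) : Set L), α x * x⁻¹ ∈ (P : Subgroup L)) :
    ∃ x, α = MulAut.conj x := by
  have hZP : center L ≤ P := le_sylow_of_normal inferInstance hZ P
  let γ : MulAut (L ⧸ center L) := QuotientGroup.congr (center L) (center L) α
    (characteristic_iff_map_eq.1 inferInstance α)
  have hγ : ∀ x, γ (QuotientGroup.mk' (center L) x) = QuotientGroup.mk' (center L) (α x) := fun x => rfl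
  have hpow : ∀ (n : ℕ) (x : L), (γ ^ n) (QuotientGroup.mk' (center L) x) = QuotientGroup.mk' (center L) ((α ^ n) x) := by
    intro n
    induction n with
    | zero => intro x; rfl
    | succ n ih =>
      intro x
      rw [pow_succ', pow_succ', MulAut.mul_apply, MulAut.mul_apply, ih, hγ]
  obtain ⟨k, hk⟩ := hk
  obtain ⟨y, hy⟩ := hI (qSyl (center L) P) γ ⟨k, by
    ext x
    obtain ⟨x, rfl⟩ := QuotientGroup.mk'_surjective (center L) x
    rw [hpow, hk]
    rfl⟩ (fun x hx => by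
      obtain ⟨x, rfl⟩ := QuotientGroup.mk'_surjective (center L) x
      rw [hγ, ← map_inv, ← map_mul, mem_qSyl hZP]
      exact hN x ((mem_normalizer_qSyl hZP).1 hx))
  obtain ⟨y, rfl⟩ := QuotientGroup.mk'_surjective (center L) y
  refine ⟨y, eq_of_perfect hperf _ _ fun x => ?_⟩
  have h1 := congrArg (fun δ : MulAut (L ⧸ center L) => δ (QuotientGroup.mk' (center L) x)) hy
  change γ (QuotientGroup.mk' (center L) x) = _ at h1
  rw [hγ] at h1
  change QuotientGroup.mk' (center L) (α x) = QuotientGroup.mk' (center L) y * QuotientGroup.mk' (center L) x *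
    (QuotientGroup.mk' (center L) y)⁻¹ at h1
  rw [← map_inv, ← map_mul, ← map_mul] at h1
  exact QuotientGroup.eq.1 h1.symm

/-- distinct Sylow 2-subgroups meet in the centre -/
def TIZ (L : Type*) [Group L] : Prop :=
  ∀ P T : Sylow 2 L, P ≠ T → (P : Subgroup L) ⊓ T ≤ center L

theorem ti_quot (hZ : IsPGroup 2 (center L)) (h : TIZ L) (P T : Sylow 2 (L ⧸ center L)) (hne : P ≠ T) :
    (P : Subgroup (L ⧸ center L)) ⊓ T = ⊥ := by
  obtain ⟨P, rfl⟩ := qSyl_surjective (center L) P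
  obtain ⟨T, rfl⟩ := qSyl_surjective (center L) T
  have hPT : P ≠ T := by
    rintro rfl
    exact hne rfl
  have hZP : center L ≤ P := le_sylow_of_normal inferInstance hZ P
  have hZT : center L ≤ T := le_sylow_of_normal inferInstance hZ T
  rw [eq_bot_iff]
  rintro x ⟨hx1, hx2⟩
  obtain ⟨x, rfl⟩ := QuotientGroup.mk'_surjective (center L) x
  have h1 := h P T hPT ⟨(mem_qSyl hZP).1 hx1, (mem_qSyl hZT).1 hx2⟩
  rw [mem_bot]
  exact (QuotientGroup.eq_one_iff x).2 h1

/-- the converse -/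
theorem tiz_of_quot (hZ : IsPGroup 2 (center L))
    (h : ∀ P T : Sylow 2 (L ⧸ center L), P ≠ T → (P : Subgroup (L ⧸ center L)) ⊓ T = ⊥) : TIZ L := by
  intro P T hPT x hx
  have hZP : center L ≤ P := le_sylow_of_normal inferInstance hZ P
  have hZT : center L ≤ T := le_sylow_of_normal inferInstance hZ T
  have hne : qSyl (center L) P ≠ qSyl (center L) T := by
    intro he
    apply hPT
    ext y
    rw [← mem_qSyl hZP, ← mem_qSyl hZT, he]
  have h1 := h _ _ hne
  have h2 : QuotientGroup.mk' (center L) x ∈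
      ((qSyl (center L) P : Sylow 2 (L ⧸ center L)) : Subgroup (L ⧸ center L)) ⊓ (qSyl (center L) T : Subgroup _) :=
    ⟨(mem_qSyl hZP).2 hx.1, (mem_qSyl hZT).2 hx.2⟩
  rw [h1, mem_bot] at h2
  exact (QuotientGroup.eq_one_iff x).1 h2

end lift

end Cfsg.Agent.R2.RkInt
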