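import Cfsg.Agent.H335.Solv
import Cfsg.Agent.H334.Q8Case
import Cfsg.Agent.H76.PermFour
import Cfsg.Agent.Lib.GenFitting
import Cfsg.Agent.OddOrderLocal.RankTwoSolvable
import Cfsg.Agent.R2.RkInt.OneComp

/-!
# Components

`G` nonsolvable, `O(G) = 1`, `O₂(G)` of 2-rank one.
-/

set_option autoImplicit false
set_option linter.dupNamespace false

namespace Cfsg.Agent.R2.RkInt

open Subgroup Cfsg Cfsg.Agent.TwoGenCore Cfsg.Agent.H335
open Cfsg.Agent.SignalizersComponents.Components

variable {G : Type*} [Group G] [Finite G]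

/-- `C(R) ≤ R`, `R` a normal 2-subgroup of 2-rank one: `G` is solvable -/
theorem solvable_of_centralizer_le {R : Subgroup G} [hRn : R.Normal] (hR : IsPGroup 2 R) (hRF : ¬ Four R)
    (hC : centralizer (R : Set G) ≤ R) : Group.IsSolvable G := by
  have h2 : Fact (Nat.Prime 2) := ⟨Nat.prime_two⟩
  have hN : ∀ g : G, g ∈ normalizer (R : Set G) := by
    intro g
    rw [normalizer_eq_top]
    trivial
  have hodd : (IsCyclic R ∨ ∃ n : ℕ, 2 ≤ n ∧ Nonempty (R ≃* QuaternionGroup (2 ^ n))) → Group.IsSolvable G := by
    intro h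
    apply solvable_pGroup
    rw [IsPGroup.iff_card]
    refine ⟨_, Nat.eq_prime_pow_of_unique_prime_dvd (n := Nat.card G) Nat.card_pos.ne' ?_⟩
    intro p hp hpd
    by_contra hne
    have hpf : Fact (Nat.Prime p) := ⟨hp⟩
    obtain ⟨x, hx⟩ := exists_prime_orderOf_dvd_card' (G := G) p hpd
    have ho : Odd (orderOf x) := by rw [hx]; exact hp.odd_of_ne_two hne
    have h3 := hC (Classification.RankOneCore.mem_centralizer_of_odd hR h (hN x) ho)
    obtain ⟨k, hk⟩ := hR ⟨x, h3⟩
    have h4 : x ^ 2 ^ k = 1 := congrArg Subtype.val hk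
    have h5 := orderOf_dvd_of_pow_eq_one h4
    rw [hx] at h5
    exact hne ((Nat.prime_dvd_prime_iff_eq hp Nat.prime_two).1 (hp.dvd_of_dvd_pow h5))
  rcases cyclic_or_quat hR hRF with h | ⟨n, ⟨e⟩⟩
  · exact hodd (Or.inl h)
  · by_cases hn : n = 0
    · subst hn
      let f : G →* MulAut R := MulAut.conjNormal
      have hfk : f.ker ≤ R := by
        intro x hx
        apply hC
        rw [mem_centralizer_iff]
        intro r hr
        have h3 : f x ⟨r, hr⟩ = ⟨r, hr⟩ := by rw [MonoidHom.mem_ker.1 hx]; rfl
        have h4 : x * r * x⁻¹ = r := by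
          have := congrArg Subtype.val h3
          rwa [MulAut.conjNormal_apply] at this
        exact (mul_inv_eq_iff_eq_mul.1 h4).symm
      rw [Group.isSolvable_iff_subgroup_quotient f.ker]
      constructor
      · exact solvable_pGroup (hR.to_le hfk)
      · have hS4 : Group.IsSolvable (Equiv.Perm (Fin 4)) := Cfsg.Agent.H76.PermFour.solvable_perm_four
        obtain ⟨g⟩ := H334.Q8Case.mulAut_equiv
        have e' : R ≃* QuaternionGroup 2 := e
        let φ : (G ⧸ f.ker) →* Equiv.Perm (Fin 4) :=
          (g.toMonoidHom.comp (MulAut.congr e').toMonoidHom).comp (QuotientGroup.kerLift f)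
        have hφ : Function.Injective φ := by
          intro a b hab
          exact QuotientGroup.kerLift_injective f ((MulAut.congr e').injective (g.injective hab))
        exact Group.isSolvable_of_isSolvable_injective hφ
    · exact hodd (Or.inr ⟨n + 1, by omega, ⟨e⟩⟩)

/-- a nonsolvable subgroup does not normalise a Sylow 2-subgroup -/
theorem not_le_norm {L : Subgroup G} (hL : ¬ Group.IsSolvable L) (S : Sylow 2 G) :
    ¬ L ≤ normalizer ((S : Subgroup G) : Set G) := by
  intro h
  apply hL
  have hle : (S : Subgroup G) ≤ normalizer ((S : Subgroup G) : Set G) := le_normalizer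
  have h1 : ((S.subtype hle : Sylow 2 (normalizer ((S : Subgroup G) : Set G))) :
      Subgroup (normalizer ((S : Subgroup G) : Set G))).Normal := by
    change ((S : Subgroup G).subgroupOf (normalizer ((S : Subgroup G) : Set G))).Normal
    infer_instance
  have h3 := solvable_of_normal _ h1
  exact Group.isSolvable_of_isSolvable_injective (f := inclusion h) (inclusion_injective h)

/-- `O₂(G)` has 2-rank one -/
theorem core_not_four (h : RkInt G) (hns : ¬ Group.IsSolvable G) : ¬ Four (pCore 2 G) := by
  intro hF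
  obtain ⟨S⟩ : Nonempty (Sylow 2 G) := inferInstance
  obtain ⟨T, hT⟩ := exists_ne_sylow hns S
  exact hT (h.eq_of_le hF (Lib.Cores.pCore_le_sylow T) (Lib.Cores.pCore_le_sylow S))

theorem cent_genFitting_le (hO : oddCore G = ⊥) :
    centralizer (generalizedFittingSubgroup G : Set G) ≤ pCore 2 G := by
  have h2 : Fact (Nat.Prime 2) := ⟨Nat.prime_two⟩
  have h1 := Lib.GenFitting.centralizer_genFitting_le (G := G)
  have hFn := Lib.GenFitting.genFitting_normal (G := G)
  have h3 : fittingSubgroup G = pCore 2 G := OddOrderLocal.RankTwoSolvable.fittingSubgroup_eq_pCore hO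
  rw [← h3]
  refine Lib.Cores.le_fittingSubgroup inferInstance ?_
  have h4 : IsMulCommutative (centralizer (generalizedFittingSubgroup G : Set G)) := by
    refine ⟨⟨fun a b => Subtype.ext ?_⟩⟩
    exact mem_centralizer_iff.1 b.2 a (h1 a.2)
  exact open scoped IsMulCommutative in inferInstance

theorem exists_component (h : RkInt G) (hns : ¬ Group.IsSolvable G) (hO : oddCore G = ⊥) :
    ∃ L : Subgroup G, IsComponent L := by
  by_contra hcon
  push Not at hcon
  have h2 : Fact (Nat.Prime 2) := ⟨Nat.prime_two⟩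
  have h1 : layer G = ⊥ := by
    rw [eq_bot_iff, layer_le_iff]
    intro K hK
    exact absurd hK (hcon K)
  have h3 : fittingSubgroup G = pCore 2 G := OddOrderLocal.RankTwoSolvable.fittingSubgroup_eq_pCore hO
  have h4 : generalizedFittingSubgroup G = pCore 2 G := by
    rw [Lib.GenFitting.genFitting_def, h1, h3, bot_sup_eq]
  have h5 := cent_genFitting_le hO
  rw [h4] at h5
  have hn := Lib.Cores.pCore_normal (G := G) 2
  exact hns (solvable_of_centralizer_le (Lib.Cores.pCore_isPGroup 2) (core_not_four h hns) h5)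

theorem comm_core (hO : oddCore G = ⊥) {L : Subgroup G} (hL : IsComponent L) :
    ∀ l ∈ L, ∀ r ∈ pCore 2 G, l * r = r * l := by
  have h2 : Fact (Nat.Prime 2) := ⟨Nat.prime_two⟩
  have h3 : fittingSubgroup G = pCore 2 G := OddOrderLocal.RankTwoSolvable.fittingSubgroup_eq_pCore hO
  intro l hl r hr
  rw [← h3] at hr
  exact (mem_centralizer_iff.1 (layer_le_centralizer_fitting (component_le_layer hL hl)) r hr).symm

/-- **one component** -/
theorem oc_of_unique (h : RkInt G) (hns : ¬ Group.IsSolvable G) (hO : oddCore G = ⊥) {L : Subgroup G}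
    (hL : IsComponent L) (hu : ∀ K : Subgroup G, IsComponent K → K = L) : OC L (pCore 2 G) := by
  have h2 : Fact (Nat.Prime 2) := ⟨Nat.prime_two⟩
  have h1 : layer G = L := by
    apply le_antisymm
    · rw [layer_le_iff]
      intro K hK
      exact (hu K hK).le
    · exact component_le_layer hL
  have hn : L.Normal := by
    rw [← h1]
    exact layer_normal G
  have h3 : fittingSubgroup G = pCore 2 G := OddOrderLocal.RankTwoSolvable.fittingSubgroup_eq_pCore hO
  have h4 : generalizedFittingSubgroup G = L ⊔ pCore 2 G := by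
    rw [Lib.GenFitting.genFitting_def, h1, h3]
  refine ⟨h, hn, hL.2.1, hL.2.2, Lib.Cores.pCore_normal 2, Lib.Cores.pCore_isPGroup 2, core_not_four h hns,
    comm_core hO hL, fun N hN hN2 => Lib.Cores.le_pCore hN hN2, ?_⟩
  intro g hgL hgR
  apply cent_genFitting_le hO
  rw [h4]
  have h5 : L ⊔ pCore 2 G ≤ centralizer ({g} : Set G) := by
    refine sup_le ?_ ?_
    · intro l hl
      rw [mem_centralizer_singleton_iff]
      exact (hgL l hl).symm
    · intro r hr
      rw [mem_centralizer_singleton_iff]
      exact (hgR r hr).symm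
  rw [mem_centralizer_iff]
  intro x hx
  exact mem_centralizer_singleton_iff.1 (h5 hx)

end Cfsg.Agent.R2.RkInt
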